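import Cfsg.Agent.H127.RG.Zpart

/-!
# S5714: RG-L23, RG-L24, RG-L13
-/

set_option autoImplicit false

namespace Cfsg.Agent.H127.RG

open Module Cfsg.Agent.H847.Bs Cfsg.Agent.H50.RG

section

variable {F V : Type*} [Field F] [AddCommGroup V] [Module F V] [Finite F] [Module.Finite F V]

theorem finite_gl (F V : Type*) [Field F] [AddCommGroup V] [Module F V] [Finite F] [Module.Finite F V] :
    Finite (V ≃ₗ[F] V) := by
  have hfV : Finite V := Module.finite_of_finite F
  exact Finite.of_injective (fun g : V ≃ₗ[F] V => (g : V → V)) DFunLike.coe_injective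

/-- a stronger form of L23: `Z` acts nontrivially on `A` -/
theorem l23' {e M : ℕ} {y : V ≃ₗ[F] V} {A : Submodule F V} (hM : 2 ≤ M) (h : BigOn e M y A) :
    ∃ z : V ≃ₗ[F] V, Subgroup.zpowers z ≤ Subgroup.zpowers y ∧ M ≤ Nat.card (Subgroup.zpowers z) ∧
      (∀ w ∈ Subgroup.zpowers z, ∀ r : ℕ, r.Prime → r ∣ orderOf w →
        orderOf ((Nat.card F : ℕ) : ZMod r) = e) ∧ ¬ ∀ a ∈ A, z a = a := by
  obtain ⟨z, h1, h2, h3, h4⟩ := exists_gen hM h
  refine ⟨z, ?_, ?_, ?_, h4⟩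
  · rw [Subgroup.zpowers_le]
    exact h1
  · rw [Nat.card_zpowers]
    exact h2
  · intro w hw r hr hrw
    obtain ⟨j, rfl⟩ := hw
    exact h3 r hr (hrw.trans (orderOf_dvd_of_mem_zpowers ⟨j, rfl⟩))

end

theorem l23 : L23 := by
  intro F V _ _ _ _ _ e M y A _ hM h
  obtain ⟨z, h1, h2, h3, _⟩ := l23' hM h
  exact ⟨_, h1, h2, h3⟩

section

variable {F V : Type*} [Field F] [AddCommGroup V] [Module F V] [Finite F] [Module.Finite F V]

theorem exists_pow_prime {z : V ≃ₗ[F] V} {r : ℕ} (hr : r.Prime) (hrz : r ∣ orderOf z) :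
    ∃ j : ℕ, (z ^ j) ^ r ^ 1 = 1 ∧ z ^ j ≠ 1 := by
  have hG := finite_gl F V
  obtain ⟨j, hj⟩ := hrz
  have h0 : orderOf z ≠ 0 := (orderOf_pos z).ne'
  have hj0 : j ≠ 0 := fun h => h0 (by rw [hj, h, mul_zero])
  refine ⟨j, ?_, ?_⟩
  · rw [pow_one, ← pow_mul, mul_comm, ← hj, pow_orderOf_eq_one]
  · intro h1
    have h2 := orderOf_dvd_of_pow_eq_one h1
    rw [hj] at h2
    have h3 := Nat.le_of_dvd (Nat.pos_of_ne_zero hj0) h2
    have h4 := hr.two_le
    have h5 : 0 < j := Nat.pos_of_ne_zero hj0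
    nlinarith

end

theorem l24 : L24 := by
  intro F X _ _ _ _ _ e r y z he hy hz hr hrz hord
  have hG := finite_gl F X
  have hbotInv : ∀ w : X ≃ₗ[F] X, Inv w ⊥ := fun w v hv => by
    rw [Submodule.mem_bot] at hv ⊢; rw [hv, map_zero]
  have hfp : ∀ w ∈ Subgroup.zpowers y, w ≠ 1 → ∀ x : X, w x = x → x = 0 := by
    intro w hw hw1 x hx
    refine fix_bot hw hy (fun h => hw1 ?_) x Submodule.mem_top hx
    exact LinearEquiv.ext fun v => h v Submodule.mem_top
  have hz1 : z ≠ 1 := by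
    intro h
    rw [h, orderOf_one] at hrz
    exact hr.one_lt.ne' (Nat.dvd_one.1 hrz)
  obtain ⟨j, hj, hj1⟩ := exists_pow_prime hr hrz
  have hdim : ∀ Y : Submodule F X, Inv z Y → e ∣ finrank F Y := by
    intro Y hY
    have h := dvd_sub_of he hr hord hj (bot_le : ⊥ ≤ Y) (hbotInv _) (Inv.pow hY j)
      (fun b _ hb => by rw [hfp _ (pow_mem hz j) hj1 b hb]; exact Submodule.zero_mem _)
    rwa [finrank_bot, Nat.sub_zero] at h
  have htop := hdim ⊤ (fun _ _ => Submodule.mem_top)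
  rw [finrank_top] at htop
  refine ⟨htop, fun hX => ⟨fun _ _ => Submodule.mem_top, hy.ne_bot, ?_⟩, hfp z hz hz1⟩
  intro Y _ hY
  rcases Nat.eq_zero_or_pos (finrank F Y) with h0 | h0
  · left
    exact Submodule.finrank_eq_zero.1 h0
  · right
    apply Submodule.eq_top_of_finrank_eq
    have h1 := Nat.le_of_dvd h0 (hdim Y hY)
    have h2 := Submodule.finrank_le Y
    omega

section

variable {F V : Type*} [Field F] [AddCommGroup V] [Module F V]

/-- the elements acting trivially on `V / A` -/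
def TrQ (A : Submodule F V) : Subgroup (V ≃ₗ[F] V) where
  carrier := {g | ∀ x, g x - x ∈ A}
  mul_mem' := by
    intro g h hg hh x
    show g (h x) - x ∈ A
    have h1 : g (h x) - x = (g (h x) - h x) + (h x - x) := by abel
    rw [h1]
    exact A.add_mem (hg _) (hh _)
  one_mem' := fun x => by simp
  inv_mem' := by
    intro g hg x
    have h1 := hg (g⁻¹ x)
    have h : g (g⁻¹ x) = x := g.apply_symm_apply x
    rw [h] at h1
    have h2 : g⁻¹ x - x = -(x - g⁻¹ x) := by abel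
    rw [h2]
    exact A.neg_mem h1

theorem mem_TrQ {A : Submodule F V} {g : V ≃ₗ[F] V} : g ∈ TrQ A ↔ ∀ x, g x - x ∈ A := Iff.rfl

theorem natCast_ne_zero_of [Finite F] {e r : ℕ} (he : 2 ≤ e) (hr : r.Prime)
    (hord : orderOf ((Nat.card F : ℕ) : ZMod r) = e) : (r : F) ≠ 0 := by
  intro h
  have : Fact r.Prime := ⟨hr⟩
  have h0 : CharP F r := by
    obtain ⟨p, hp⟩ := CharP.exists F
    have h1 : p ∣ r := (CharP.cast_eq_zero_iff F p r).1 h
    rcases (Nat.dvd_prime hr).1 h1 with h2 | h2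
    · subst h2
      have h3 : ((1 : ℕ) : F) = 0 := (CharP.cast_eq_zero_iff F 1 1).2 dvd_rfl
      rw [Nat.cast_one] at h3
      exact absurd h3 one_ne_zero
    · rwa [← h2]
  have hd : r ∣ Nat.card F := by
    have : Fintype F := Fintype.ofFinite F
    obtain ⟨n, _, hn⟩ := FiniteField.card F r
    rw [Nat.card_eq_fintype_card, hn]
    exact dvd_pow_self r n.ne_zero
  rw [(ZMod.natCast_eq_zero_iff _ _).2 hd, orderOf_zero] at hord
  omega

/-- the average: `b` fixed modulo `A` and `b ∈ A + [V, z]` implies `b ∈ A` -/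
theorem mem_of_avg {z : V ≃ₗ[F] V} {n : ℕ} (hz : z ^ n = 1) (hn : (n : F) ≠ 0) {A : Submodule F V}
    (hA : Inv z A) {b : V} (hb : z b - b ∈ A)
    (hbD : ∃ a ∈ A, ∃ v, b = a + (z v - v)) : b ∈ A := by
  obtain ⟨a, ha, v, hv⟩ := hbD
  have h1 : ∀ i : ℕ, (z ^ i) b - b ∈ A := by
    intro i
    induction i with
    | zero => simp
    | succ i ih =>
      have h2 : (z ^ (i + 1)) b - b = (z ^ i) (z b - b) + ((z ^ i) b - b) := by
        rw [pow_succ, map_sub]
        show (z ^ i) (z b) - b = _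
        abel
      rw [h2]
      exact A.add_mem (Inv.pow hA i _ hb) ih
  have h2 : ∑ i ∈ Finset.range n, (z ^ i) b ∈ A := by
    have h3 : ∀ m : ℕ, ∑ i ∈ Finset.range m, (z ^ i) (z v - v) = (z ^ m) v - v := by
      intro m
      induction m with
      | zero => simp
      | succ m ih =>
        rw [Finset.sum_range_succ, ih, pow_succ, map_sub]
        show _ = (z ^ m) (z v) - v
        abel
    have h4 : ∑ i ∈ Finset.range n, (z ^ i) b = ∑ i ∈ Finset.range n, (z ^ i) a + ((z ^ n) v - v) := by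
      rw [← h3, ← Finset.sum_add_distrib]
      refine Finset.sum_congr rfl fun i _ => ?_
      rw [hv, map_add]
    rw [h4, hz]
    have h5 : (1 : V ≃ₗ[F] V) v - v = 0 := by simp
    rw [h5, add_zero]
    exact A.sum_mem fun i _ => Inv.pow hA i a ha
  have h3 : (n : F) • b ∈ A := by
    have h4 : (n : F) • b = ∑ i ∈ Finset.range n, (z ^ i) b - ∑ i ∈ Finset.range n, ((z ^ i) b - b) := by
      rw [← Finset.sum_sub_distrib]
      simp
      rw [Nat.cast_smul_eq_nsmul]
    rw [h4]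
    exact A.sub_mem h2 (A.sum_mem fun i _ => h1 i)
  have h4 := A.smul_mem (n : F)⁻¹ h3
  rwa [smul_smul, inv_mul_cancel₀ hn, one_smul] at h4

/-- minimal invariant subspaces above `A` inside `D` -/
theorem exists_min [Module.Finite F V] {y : V ≃ₗ[F] V} {A D : Submodule F V} (hD : Inv y D) (hAD : A < D) :
    ∃ B, Inv y B ∧ A < B ∧ B ≤ D ∧ ∀ C, Inv y C → A ≤ C → C ≤ B → C = A ∨ C = B := by
  classical
  have hex : ∃ n : ℕ, ∃ B : Submodule F V, finrank F B = n ∧ Inv y B ∧ A < B ∧ B ≤ D :=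
    ⟨_, D, rfl, hD, hAD, le_rfl⟩
  obtain ⟨B, hB1, hB2, hB3, hB4⟩ := Nat.find_spec hex
  refine ⟨B, hB2, hB3, hB4, fun C hC hAC hCB => ?_⟩
  by_contra hcon
  rw [not_or] at hcon
  have h1 : A < C := lt_of_le_of_ne hAC (Ne.symm hcon.1)
  have h2 : C < B := lt_of_le_of_ne hCB hcon.2
  have h3 := Submodule.finrank_lt_finrank_of_lt h2
  rw [hB1] at h3
  exact Nat.find_min hex h3 ⟨C, rfl, hC, h1, hCB.trans hB4⟩

/-- a nontrivial action of the part of `y` on `V / A` gives a section of dimension divisible by `e` -/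
theorem exists_section [Finite F] [Module.Finite F V] {e : ℕ} (he : 2 ≤ e) {y z : V ≃ₗ[F] V} (hz : z ∈ Subgroup.zpowers y)
    (hpr : ∀ r : ℕ, r.Prime → r ∣ orderOf z → orderOf ((Nat.card F : ℕ) : ZMod r) = e) {A : Submodule F V}
    (hA : Inv y A) (hn : z ∉ TrQ A) :
    ∃ B, Inv y B ∧ A < B ∧ (∀ C, Inv y C → A ≤ C → C ≤ B → C = A ∨ C = B) ∧
      e ∣ finrank F B - finrank F A := by
  have hG := finite_gl F V
  obtain ⟨r, k, j, hr, hrz, hk, hj⟩ := exists_prime_part (orderOf_pos z).ne' hn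
  have hord := hpr r hr hrz
  set w := z ^ j with hw
  have hwy : w ∈ Subgroup.zpowers y := pow_mem hz j
  have hwA : Inv w A := Inv.of_zpowers hA hwy
  set D : Submodule F V := A ⊔ LinearMap.range ((w : V →ₗ[F] V) - LinearMap.id) with hDdef
  have hDmem : ∀ b, b ∈ D ↔ ∃ a ∈ A, ∃ v, b = a + (w v - v) := by
    intro b
    rw [hDdef, Submodule.mem_sup]
    constructor
    · rintro ⟨a, ha, c, ⟨v, rfl⟩, rfl⟩
      exact ⟨a, ha, v, rfl⟩
    · rintro ⟨a, ha, v, rfl⟩
      exact ⟨a, ha, _, ⟨v, rfl⟩, rfl⟩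
  have hD : Inv y D := by
    intro b hb
    rw [hDmem] at hb ⊢
    obtain ⟨a, ha, v, rfl⟩ := hb
    refine ⟨y a, hA a ha, y v, ?_⟩
    rw [map_add, map_sub, comm_of_zpowers hwy]
  have hAD : A < D := by
    refine lt_of_le_of_ne le_sup_left fun h => hj fun x => ?_
    rw [h, hDmem]
    exact ⟨0, A.zero_mem, x, by rw [zero_add]⟩
  obtain ⟨B, hB1, hB2, hB3, hB4⟩ := exists_min hD hAD
  have hrk : ((r ^ k : ℕ) : F) ≠ 0 := by
    rw [Nat.cast_pow]
    exact pow_ne_zero _ (natCast_ne_zero_of he hr hord)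
  have hnB : ¬ ∀ b ∈ B, w b - b ∈ A := by
    intro h
    refine hB2.not_ge fun b hb => ?_
    exact mem_of_avg hk hrk hwA (h b hb) ((hDmem b).1 (hB3 hb))
  have hfix := fix_quot hwy hA hB1 hB2.le hB4 hwA hnB
  refine ⟨B, hB1, hB2, hB4, ?_⟩
  exact dvd_sub_of he hr hord hk hB2.le hwA (Inv.of_zpowers hB1 hwy)
    (fun b hb hwb => hfix b hb (by rw [hwb, sub_self]; exact A.zero_mem))

end

theorem l13 : L13 := by
  intro F V _ _ _ _ _ e M he hM hdim y A hgd
  have hG := finite_gl F V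
  obtain ⟨z, hzy, hcard, hpr, hnA⟩ := l23' hM hgd.big
  have hz : z ∈ Subgroup.zpowers y := hzy (Subgroup.mem_zpowers z)
  have hzA : Inv z A := Inv.of_zpowers hgd.irr.inv hz
  -- `z` is trivial on `V / A`
  have htr : z ∈ TrQ A := by
    by_contra hn
    obtain ⟨B, hB1, hB2, hB3, hB4⟩ := exists_section he hz (hpr z (Subgroup.mem_zpowers z)) hgd.irr.inv hn
    have h1 : e ∣ finrank F B := by
      have h2 : finrank F A ≤ finrank F B := Submodule.finrank_mono hB2.le
      have h3 : finrank F B = finrank F B - finrank F A + e := by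
        have := hgd.dim
        omega
      rw [h3]
      exact dvd_add hB4 dvd_rfl
    by_cases hBV : finrank F B < finrank F V
    · exact hgd.no B hBV hB1 hB2 hB3 h1
    · have h2 := Submodule.finrank_le B
      have h3 : finrank F B = finrank F V := by omega
      exact hdim (h3 ▸ h1)
  -- fixed points in `A`
  have hfix : ∀ w ∈ Subgroup.zpowers z, (¬ ∀ a ∈ A, w a = a) → ∀ a ∈ A, w a = a → a = 0 :=
    fun w hw hn => fix_bot (hzy hw) hgd.irr hn
  set C : Submodule F V := LinearMap.ker ((z : V →ₗ[F] V) - LinearMap.id) with hCdef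
  have hCmem : ∀ v, v ∈ C ↔ z v = v := by
    intro v
    rw [hCdef, LinearMap.mem_ker]
    exact sub_eq_zero
  have hsurj : ∀ w ∈ Subgroup.zpowers z, (¬ ∀ a ∈ A, w a = a) → ∀ a ∈ A, ∃ b ∈ A, w b - b = a := by
    intro w hw hn a ha
    have hwA : Inv w A := Inv.of_zpowers hgd.irr.inv (hzy hw)
    let f : A →ₗ[F] A := ((w : V →ₗ[F] V) - LinearMap.id).restrict
      (fun v hv => A.sub_mem (hwA v hv) hv)
    have hf : ∀ v : A, ((f v : A) : V) = w v - v := fun v => rfl
    have hinj : Function.Injective f := by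
      rw [← LinearMap.ker_eq_bot, LinearMap.ker_eq_bot']
      intro v hv
      have h1 : w v - v = 0 := by rw [← hf, hv]; rfl
      exact Subtype.ext (hfix w hw hn v v.2 (sub_eq_zero.1 h1))
    obtain ⟨b, hb⟩ := (LinearMap.injective_iff_surjective.1 hinj) ⟨a, ha⟩
    exact ⟨b, b.2, by rw [← hf, hb]⟩
  have hcompl : IsCompl A C := by
    constructor
    · rw [Submodule.disjoint_def]
      intro a ha hc
      exact hfix z (Subgroup.mem_zpowers z) hnA a ha ((hCmem a).1 hc)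
    · rw [codisjoint_iff, eq_top_iff]
      intro x _
      obtain ⟨b, hb, hb2⟩ := hsurj z (Subgroup.mem_zpowers z) hnA _ (htr x)
      rw [Submodule.mem_sup]
      refine ⟨b, hb, x - b, (hCmem _).2 ?_, by abel⟩
      rw [map_sub]
      have h1 : z x = z b - b + x := by rw [hb2]; abel
      rw [h1]
      abel
  have hCz : ∀ w ∈ Subgroup.zpowers z, ∀ c ∈ C, w c = c := by
    intro w hw c hc
    obtain ⟨j, rfl⟩ := (isOfFinOrder_of_finite z).mem_powers_iff_mem_zpowers.2 hw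
    have hc' := (hCmem c).1 hc
    have : ∀ j : ℕ, (z ^ j) c = c := by
      intro j
      induction j with
      | zero => rfl
      | succ j ih =>
        rw [pow_succ]
        show (z ^ j) (z c) = c
        rw [hc', ih]
    exact this j
  have hne : ∀ w ∈ Subgroup.zpowers z, w ≠ 1 → ¬ ∀ a ∈ A, w a = a := by
    intro w hw hw1 h
    apply hw1
    ext x
    obtain ⟨a, ha, c, hc, rfl⟩ := Submodule.mem_sup.1
      ((codisjoint_iff.1 hcompl.codisjoint) ▸ (Submodule.mem_top : x ∈ (⊤ : Submodule F V)))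
    rw [map_add, h a ha, hCz w hw c hc]
    rfl
  have happ : ∀ (w : V ≃ₗ[F] V) (x : V), w (w⁻¹ x) = x := fun w x => w.apply_symm_apply x
  have hinvA : ∀ w ∈ Subgroup.zpowers z, ∀ a ∈ A, w⁻¹ a ∈ A := fun w hw =>
    Inv.of_zpowers hgd.irr.inv (hzy (inv_mem hw))
  have hext : ∀ g : V ≃ₗ[F] V, (∀ a ∈ A, g a = a) → (∀ c ∈ C, g c = c) → g = 1 := by
    intro g h1 h2
    ext x
    obtain ⟨a, ha, c, hc, rfl⟩ := Submodule.mem_sup.1
      ((codisjoint_iff.1 hcompl.codisjoint) ▸ (Submodule.mem_top : x ∈ (⊤ : Submodule F V)))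
    rw [map_add, h1 a ha, h2 c hc]
    rfl
  refine ⟨Subgroup.zpowers z, C, hzy, hcard, hcompl, ⟨?_, ?_⟩, ⟨?_, ?_⟩⟩
  · rintro w hw g ⟨hg1, hg2⟩
    have hwA : Inv w A := Inv.of_zpowers hgd.irr.inv (hzy hw)
    refine ⟨fun x => ?_, fun a ha => ?_⟩
    · show w (g (w⁻¹ x)) - x ∈ A
      have h1 : w (g (w⁻¹ x)) - x = w (g (w⁻¹ x) - w⁻¹ x) := by rw [map_sub, happ]
      rw [h1]
      exact hwA _ (hg1 _)
    · show w (g (w⁻¹ a)) = a
      rw [hg2 _ (hinvA w hw a ha), happ]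
  · rintro w hw hw1 g ⟨hg1, hg2⟩ hcom
    have hcom' : ∀ x, w (g x) = g (w x) := by
      intro x
      have h1 : w * g = g * w := mul_inv_eq_iff_eq_mul.1 hcom
      exact congrArg (fun k : V ≃ₗ[F] V => k x) h1
    refine hext g hg2 fun c hc => ?_
    have h1 : w (g c - c) = g c - c := by
      rw [map_sub, hcom', hCz w hw c hc]
    exact sub_eq_zero.1 (hfix w hw (hne w hw hw1) _ (hg1 c) h1)
  · rintro w hw g ⟨hg1, hg2⟩
    refine ⟨fun x => ?_, fun c hc => ?_⟩
    · show w (g (w⁻¹ x)) - x ∈ C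
      have h1 : w (g (w⁻¹ x)) - x = w (g (w⁻¹ x) - w⁻¹ x) := by rw [map_sub, happ]
      rw [h1, hCz w hw _ (hg1 _)]
      exact hg1 _
    · show w (g (w⁻¹ c)) = c
      have h1 : w⁻¹ c = c := hCz _ (inv_mem hw) c hc
      rw [h1, hg2 c hc, hCz w hw c hc]
  · rintro w hw hw1 g ⟨hg1, hg2⟩ hcom
    have hcom' : ∀ x, w (g x) = g (w x) := by
      intro x
      have h1 : w * g = g * w := mul_inv_eq_iff_eq_mul.1 hcom
      exact congrArg (fun k : V ≃ₗ[F] V => k x) h1
    refine hext g (fun a ha => ?_) hg2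
    obtain ⟨b, hb, rfl⟩ := hsurj w hw (hne w hw hw1) a ha
    have h1 : w (g b - b) = g b - b := hCz w hw _ (hg1 b)
    rw [map_sub, hcom'] at h1
    rw [map_sub]
    have h2 : g (w b) = (g (w b) - w b) + w b := by abel
    rw [h2, h1]
    abel

end Cfsg.Agent.H127.RG
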