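import Cfsg.Agent.H127.RG.L13
import Cfsg.Agent.H94.RG.UStmts

/-!
# S5715: U3 (the stronger form of L13)
-/

set_option autoImplicit false

namespace Cfsg.Agent.H127.RG

open Module Cfsg.Agent.H847.Bs Cfsg.Agent.H50.RG Cfsg.Agent.H94.RG.U

/-- a group acting freely on `A \ 0` -/
theorem card_dvd_of_free {F V : Type*} [Field F] [AddCommGroup V] [Module F V] [Finite F] [Module.Finite F V]
    {e : ℕ} {Z : Subgroup (V ≃ₗ[F] V)} {A : Submodule F V} (hA : finrank F A = e) (hinv : ∀ z ∈ Z, Inv z A)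
    (hfix : ∀ z ∈ Z, z ≠ 1 → ∀ a ∈ A, z a = a → a = 0) : Nat.card Z ∣ Nat.card F ^ e - 1 := by
  classical
  have hfV : Finite V := Module.finite_of_finite F
  let S := {a : V // a ∈ A ∧ a ≠ 0}
  let act : MulAction Z S :=
    { smul := fun z a => ⟨z.1 a.1, hinv z.1 z.2 a.1 a.2.1, fun h => a.2.2 (by
        rwa [LinearEquiv.map_eq_zero_iff] at h)⟩
      one_smul := fun a => Subtype.ext rfl
      mul_smul := fun z w a => Subtype.ext rfl }
  have hst : ∀ a : S, MulAction.stabilizer Z a = ⊥ := by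
    intro a
    rw [Subgroup.eq_bot_iff_forall]
    intro z hz
    by_contra h1
    have h2 : z.1 a.1 = a.1 := congrArg Subtype.val (MulAction.mem_stabilizer_iff.1 hz)
    exact a.2.2 (hfix z.1 z.2 (fun h3 => h1 (Subtype.ext h3)) a.1 a.2.1 h2)
  have h1 : Nat.card S = Nat.card (MulAction.orbitRel.Quotient Z S) * Nat.card Z := by
    rw [← Nat.card_prod]
    exact Nat.card_congr (MulAction.selfEquivOrbitsQuotientProd hst)
  have h2 : Nat.card S = Nat.card F ^ e - 1 := by
    have h3 : Nat.card A = Nat.card F ^ e := by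
      rw [Module.natCard_eq_pow_finrank (K := F) (V := A), hA]
    have h4 : Nat.card S = Nat.card {a : A // a ≠ 0} :=
      Nat.card_congr
        { toFun := fun a => ⟨⟨a.1, a.2.1⟩, fun h => a.2.2 (congrArg Subtype.val h)⟩
          invFun := fun a => ⟨a.1.1, a.1.2, fun h => a.2 (Subtype.ext h)⟩
          left_inv := fun _ => rfl
          right_inv := fun _ => rfl }
    have : Fintype A := Fintype.ofFinite A
    have : Fintype {a : A // a ≠ 0} := Fintype.ofFinite _
    rw [h4, ← h3, Nat.card_eq_fintype_card, Nat.card_eq_fintype_card, Fintype.card_subtype_compl,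
      Fintype.card_subtype_eq]
  rw [← h2, h1]
  exact dvd_mul_left _ _

theorem u3 : U3 := by
  intro F V _ _ _ _ _ e M he hM hdim y A hgd
  have hG := finite_gl F V
  obtain ⟨z, hzy, hcard, hpr, hnA⟩ := l23' hM hgd.big
  have hz : z ∈ Subgroup.zpowers y := hzy (Subgroup.mem_zpowers z)
  have hzA : Inv z A := Inv.of_zpowers hgd.irr.inv hz
  -- `z` is trivial on `V / A`
  have htr : z ∈ TrQ A := by
    by_contra hn
    obtain ⟨B, hB1, hB2, hB3, hB4⟩ := exists_section he hz (hpr z (Subgroup.mem_zpowers z)) hgd.irr.inv hn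
    have h1 : e ∣ finrank F B := by
      have h2 : finrank F A ≤ finrank F B := Submodule.finrank_mono hB2.le
      have h3 : finrank F B = finrank F B - finrank F A + e := by
        have := hgd.dim
        omega
      rw [h3]
      exact dvd_add hB4 dvd_rfl
    by_cases hBV : finrank F B < finrank F V
    · exact hgd.no B hBV hB1 hB2 hB3 h1
    · have h2 := Submodule.finrank_le B
      have h3 : finrank F B = finrank F V := by omega
      exact hdim (h3 ▸ h1)
  -- fixed points in `A`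
  have hfix : ∀ w ∈ Subgroup.zpowers z, (¬ ∀ a ∈ A, w a = a) → ∀ a ∈ A, w a = a → a = 0 :=
    fun w hw hn => fix_bot (hzy hw) hgd.irr hn
  set C : Submodule F V := LinearMap.ker ((z : V →ₗ[F] V) - LinearMap.id) with hCdef
  have hCmem : ∀ v, v ∈ C ↔ z v = v := by
    intro v
    rw [hCdef, LinearMap.mem_ker]
    exact sub_eq_zero
  have hsurj : ∀ w ∈ Subgroup.zpowers z, (¬ ∀ a ∈ A, w a = a) → ∀ a ∈ A, ∃ b ∈ A, w b - b = a := by
    intro w hw hn a ha
    have hwA : Inv w A := Inv.of_zpowers hgd.irr.inv (hzy hw)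
    let f : A →ₗ[F] A := ((w : V →ₗ[F] V) - LinearMap.id).restrict
      (fun v hv => A.sub_mem (hwA v hv) hv)
    have hf : ∀ v : A, ((f v : A) : V) = w v - v := fun v => rfl
    have hinj : Function.Injective f := by
      rw [← LinearMap.ker_eq_bot, LinearMap.ker_eq_bot']
      intro v hv
      have h1 : w v - v = 0 := by rw [← hf, hv]; rfl
      exact Subtype.ext (hfix w hw hn v v.2 (sub_eq_zero.1 h1))
    obtain ⟨b, hb⟩ := (LinearMap.injective_iff_surjective.1 hinj) ⟨a, ha⟩
    exact ⟨b, b.2, by rw [← hf, hb]⟩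
  have hcompl : IsCompl A C := by
    constructor
    · rw [Submodule.disjoint_def]
      intro a ha hc
      exact hfix z (Subgroup.mem_zpowers z) hnA a ha ((hCmem a).1 hc)
    · rw [codisjoint_iff, eq_top_iff]
      intro x _
      obtain ⟨b, hb, hb2⟩ := hsurj z (Subgroup.mem_zpowers z) hnA _ (htr x)
      rw [Submodule.mem_sup]
      refine ⟨b, hb, x - b, (hCmem _).2 ?_, by abel⟩
      rw [map_sub]
      have h1 : z x = z b - b + x := by rw [hb2]; abel
      rw [h1]
      abel
  have hCz : ∀ w ∈ Subgroup.zpowers z, ∀ c ∈ C, w c = c := by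
    intro w hw c hc
    obtain ⟨j, rfl⟩ := (isOfFinOrder_of_finite z).mem_powers_iff_mem_zpowers.2 hw
    have hc' := (hCmem c).1 hc
    have : ∀ j : ℕ, (z ^ j) c = c := by
      intro j
      induction j with
      | zero => rfl
      | succ j ih =>
        rw [pow_succ]
        show (z ^ j) (z c) = c
        rw [hc', ih]
    exact this j
  have hne : ∀ w ∈ Subgroup.zpowers z, w ≠ 1 → ¬ ∀ a ∈ A, w a = a := by
    intro w hw hw1 h
    apply hw1
    ext x
    obtain ⟨a, ha, c, hc, rfl⟩ := Submodule.mem_sup.1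
      ((codisjoint_iff.1 hcompl.codisjoint) ▸ (Submodule.mem_top : x ∈ (⊤ : Submodule F V)))
    rw [map_add, h a ha, hCz w hw c hc]
    rfl
  have happ : ∀ (w : V ≃ₗ[F] V) (x : V), w (w⁻¹ x) = x := fun w x => w.apply_symm_apply x
  have hinvA : ∀ w ∈ Subgroup.zpowers z, ∀ a ∈ A, w⁻¹ a ∈ A := fun w hw =>
    Inv.of_zpowers hgd.irr.inv (hzy (inv_mem hw))
  have hext : ∀ g : V ≃ₗ[F] V, (∀ a ∈ A, g a = a) → (∀ c ∈ C, g c = c) → g = 1 := by
    intro g h1 h2
    ext x
    obtain ⟨a, ha, c, hc, rfl⟩ := Submodule.mem_sup.1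
      ((codisjoint_iff.1 hcompl.codisjoint) ▸ (Submodule.mem_top : x ∈ (⊤ : Submodule F V)))
    rw [map_add, h1 a ha, h2 c hc]
    rfl
  have hZS : ZS e (Subgroup.zpowers z) A C := by
    refine ⟨⟨z, rfl⟩, ?_, ?_, hgd.dim, fun w hw => Inv.of_zpowers hgd.irr.inv (hzy hw), ?_, ?_, hCz⟩
    · intro h
      rw [h, Subgroup.card_bot] at hcard
      omega
    · unfold pd
      classical
      rw [Finset.mem_filter, Nat.mem_divisors]
      refine ⟨⟨?_, ?_⟩, ?_⟩
      · exact card_dvd_of_free (hgd.dim) (fun w hw => Inv.of_zpowers hgd.irr.inv (hzy hw))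
          (fun w hw hw1 => hfix w hw (hne w hw hw1))
      · have h1 : 2 ≤ Nat.card F := Finite.one_lt_card
        have h2 : 2 ^ 1 ≤ Nat.card F ^ e := (Nat.pow_le_pow_left h1 1).trans
          (Nat.pow_le_pow_right (by omega) (by omega))
        omega
      · intro r hr hrz
        rw [Nat.card_zpowers] at hrz
        exact hpr z (Subgroup.mem_zpowers z) r hr hrz
    · intro w hw hw1 W hWA hW
      have hwo : orderOf w ≠ 1 := fun h => hw1 (orderOf_eq_one_iff.1 h)
      have hr := Nat.minFac_prime hwo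
      obtain ⟨j, hj1, hj2⟩ := exists_pow_prime hr (Nat.minFac_dvd (orderOf w))
      have hwj : w ^ j ∈ Subgroup.zpowers z := pow_mem hw j
      have h1 : e ∣ finrank F W := by
        have h2 := dvd_sub_of he hr (hpr w hw _ hr (Nat.minFac_dvd _)) hj1 (bot_le : ⊥ ≤ W)
          (fun v hv => by rw [Submodule.mem_bot] at hv ⊢; rw [hv, map_zero]) (Inv.pow hW j)
          (fun b hb hwb => by
            rw [Submodule.mem_bot]
            exact hfix _ hwj (hne _ hwj hj2) b (hWA hb) hwb)
        rwa [finrank_bot, Nat.sub_zero] at h2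
      rcases Nat.eq_zero_or_pos (finrank F W) with h0 | h0
      · left
        exact Submodule.finrank_eq_zero.1 h0
      · right
        apply Submodule.eq_of_le_of_finrank_le hWA
        rw [hgd.dim]
        exact Nat.le_of_dvd h0 h1
    · exact fun w hw hw1 => hfix w hw (hne w hw hw1)
  refine ⟨Subgroup.zpowers z, C, hzy, hcard, hcompl, hZS, ⟨?_, ?_⟩, ⟨?_, ?_⟩⟩
  · rintro w hw g ⟨hg1, hg2⟩
    have hwA : Inv w A := Inv.of_zpowers hgd.irr.inv (hzy hw)
    refine ⟨fun x => ?_, fun a ha => ?_⟩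
    · show w (g (w⁻¹ x)) - x ∈ A
      have h1 : w (g (w⁻¹ x)) - x = w (g (w⁻¹ x) - w⁻¹ x) := by rw [map_sub, happ]
      rw [h1]
      exact hwA _ (hg1 _)
    · show w (g (w⁻¹ a)) = a
      rw [hg2 _ (hinvA w hw a ha), happ]
  · rintro w hw hw1 g ⟨hg1, hg2⟩ hcom
    have hcom' : ∀ x, w (g x) = g (w x) := by
      intro x
      have h1 : w * g = g * w := mul_inv_eq_iff_eq_mul.1 hcom
      exact congrArg (fun k : V ≃ₗ[F] V => k x) h1
    refine hext g hg2 fun c hc => ?_
    have h1 : w (g c - c) = g c - c := by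
      rw [map_sub, hcom', hCz w hw c hc]
    exact sub_eq_zero.1 (hfix w hw (hne w hw hw1) _ (hg1 c) h1)
  · rintro w hw g ⟨hg1, hg2⟩
    refine ⟨fun x => ?_, fun c hc => ?_⟩
    · show w (g (w⁻¹ x)) - x ∈ C
      have h1 : w (g (w⁻¹ x)) - x = w (g (w⁻¹ x) - w⁻¹ x) := by rw [map_sub, happ]
      rw [h1, hCz w hw _ (hg1 _)]
      exact hg1 _
    · show w (g (w⁻¹ c)) = c
      have h1 : w⁻¹ c = c := hCz _ (inv_mem hw) c hc
      rw [h1, hg2 c hc, hCz w hw c hc]
  · rintro w hw hw1 g ⟨hg1, hg2⟩ hcom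
    have hcom' : ∀ x, w (g x) = g (w x) := by
      intro x
      have h1 : w * g = g * w := mul_inv_eq_iff_eq_mul.1 hcom
      exact congrArg (fun k : V ≃ₗ[F] V => k x) h1
    refine hext g (fun a ha => ?_) hg2
    obtain ⟨b, hb, rfl⟩ := hsurj w hw (hne w hw hw1) a ha
    have h1 : w (g b - b) = g b - b := hCz w hw _ (hg1 b)
    rw [map_sub, hcom'] at h1
    rw [map_sub]
    have h2 : g (w b) = (g (w b) - w b) + w b := by abel
    rw [h2, h1]
    abel

end Cfsg.Agent.H127.RG
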