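import Cfsg.Agent.H50.RG.LStmts
import Cfsg.Agent.H150.Fpf

/-!
# S5714, RG-L23, RG-L24, RG-L13: a cyclic group acting freely on two opposite unipotent radicals
-/

set_option autoImplicit false

namespace Cfsg.Agent.H127.RG

open Module Cfsg.Agent.H847.Bs Cfsg.Agent.H50.RG

/-- the part of `N` for the primes dividing `m` -/
theorem exists_split (m : ℕ) : ∀ N : ℕ, N ≠ 0 →
    ∃ a b : ℕ, N = a * b ∧ Nat.Coprime m b ∧ ∀ r : ℕ, r.Prime → r ∣ a → r ∣ m := by
  intro N
  induction N using Nat.strong_induction_on with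
  | _ N ih =>
    intro hN
    by_cases h : Nat.Coprime m N
    · exact ⟨1, N, by simp, h, fun r hr h1 => absurd (Nat.dvd_one.1 h1) hr.one_lt.ne'⟩
    · obtain ⟨r, hr, h1, h2⟩ := Nat.Prime.not_coprime_iff_dvd.1 h
      obtain ⟨N', rfl⟩ := h2
      have h3 : N' ≠ 0 := fun h0 => hN (by rw [h0, mul_zero])
      have h4 : N' < r * N' := by
        have := hr.one_lt
        have h5 : 0 < N' := Nat.pos_of_ne_zero h3
        nlinarith
      obtain ⟨a, b, h5, h6, h7⟩ := ih N' h4 h3
      refine ⟨r * a, b, by rw [mul_assoc, ← h5], h6, ?_⟩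
      intro s hs h8
      rcases (Nat.Prime.dvd_mul hs).1 h8 with h9 | h9
      · rwa [(Nat.prime_dvd_prime_iff_eq hs hr).1 h9]
      · exact h7 s hs h9

/-- in a group: an element `x` of finite order outside `H` has a power of prime power order outside `H` -/
theorem exists_prime_part {G : Type*} [Group G] {x : G} (hx : orderOf x ≠ 0) {H : Subgroup G} (h : x ∉ H) :
    ∃ r k j : ℕ, r.Prime ∧ r ∣ orderOf x ∧ (x ^ j) ^ r ^ k = 1 ∧ x ^ j ∉ H := by
  classical
  have hex : ∃ j : ℕ, 0 < j ∧ x ^ j ∈ H := ⟨orderOf x, Nat.pos_of_ne_zero hx, by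
    rw [pow_orderOf_eq_one]; exact one_mem _⟩
  set o := Nat.find hex with ho
  obtain ⟨ho1, ho2⟩ := Nat.find_spec hex
  rw [← ho] at ho1 ho2
  have hdvd : ∀ j : ℕ, x ^ j ∈ H → o ∣ j := by
    intro j hj
    have h1 : x ^ (j % o) ∈ H := by
      have h2 : x ^ j = (x ^ o) ^ (j / o) * x ^ (j % o) := by
        rw [← pow_mul, ← pow_add, Nat.div_add_mod]
      rw [h2] at hj
      exact (Subgroup.mul_mem_cancel_left H (pow_mem ho2 _)).1 hj
    by_contra h3
    have h4 : 0 < j % o := Nat.pos_of_ne_zero fun h5 => h3 (Nat.dvd_of_mod_eq_zero h5)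
    exact Nat.find_min hex (Nat.mod_lt j ho1) ⟨h4, h1⟩
  have ho3 : o ≠ 1 := fun h1 => h (by rw [h1, pow_one] at ho2; exact ho2)
  have hr := Nat.minFac_prime ho3
  obtain ⟨k, b, hb, hk⟩ := Nat.exists_eq_pow_mul_and_not_dvd hx o.minFac hr.ne_one
  refine ⟨o.minFac, k, b, hr, (Nat.minFac_dvd o).trans (hdvd _ (by
    rw [pow_orderOf_eq_one]; exact one_mem _)), ?_, ?_⟩
  · rw [← pow_mul, mul_comm, ← hk, pow_orderOf_eq_one]
  · intro h1
    exact hb ((Nat.minFac_dvd o).trans (hdvd b h1))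

section

variable {F V : Type*} [Field F] [AddCommGroup V] [Module F V]

theorem Inv.pow {y : V ≃ₗ[F] V} {A : Submodule F V} (h : Inv y A) (j : ℕ) : Inv (y ^ j) A := by
  induction j with
  | zero => intro v hv; exact hv
  | succ j ih =>
    intro v hv
    rw [pow_succ]
    exact ih _ (h v hv)

theorem Inv.of_zpowers [Finite (V ≃ₗ[F] V)] {y z : V ≃ₗ[F] V} {A : Submodule F V} (h : Inv y A)
    (hz : z ∈ Subgroup.zpowers y) : Inv z A := by
  obtain ⟨j, rfl⟩ := (isOfFinOrder_of_finite y).mem_powers_iff_mem_zpowers.2 hz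
  exact Inv.pow h j

theorem comm_of_zpowers {y z : V ≃ₗ[F] V} (hz : z ∈ Subgroup.zpowers y) (v : V) : z (y v) = y (z v) := by
  obtain ⟨j, rfl⟩ := hz
  have h : y ^ j * y = y * y ^ j := (Commute.refl y).zpow_left j |>.eq
  exact congrArg (fun g : V ≃ₗ[F] V => g v) h

/-- a nontrivial power of `y` has no nonzero fixed point on an irreducible section `B / A` -/
theorem fix_quot {y z : V ≃ₗ[F] V} (hz : z ∈ Subgroup.zpowers y) {A B : Submodule F V} (hA : Inv y A)
    (hB : Inv y B) (hAB : A ≤ B) (hmin : ∀ C, Inv y C → A ≤ C → C ≤ B → C = A ∨ C = B)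
    (hzA : Inv z A) (hn : ¬ ∀ b ∈ B, z b - b ∈ A) : ∀ b ∈ B, z b - b ∈ A → b ∈ A := by
  set C : Submodule F V := B ⊓ A.comap ((z : V →ₗ[F] V) - LinearMap.id) with hC
  have hmem : ∀ v, v ∈ C ↔ v ∈ B ∧ z v - v ∈ A := fun v => Iff.rfl
  have h1 : Inv y C := by
    intro v hv
    rw [hmem] at hv ⊢
    refine ⟨hB v hv.1, ?_⟩
    rw [comm_of_zpowers hz, ← map_sub]
    exact hA _ hv.2
  have h2 : A ≤ C := fun a ha => (hmem a).2 ⟨hAB ha, A.sub_mem (hzA a ha) ha⟩
  rcases hmin C h1 h2 inf_le_left with h3 | h3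
  · intro b hb hzb
    rw [← h3]
    exact (hmem b).2 ⟨hb, hzb⟩
  · exact absurd (fun b hb => ((hmem b).1 (h3 ▸ hb)).2) hn

theorem fix_bot {y z : V ≃ₗ[F] V} (hz : z ∈ Subgroup.zpowers y) {A : Submodule F V} (hA : Irr y A)
    (hn : ¬ ∀ a ∈ A, z a = a) : ∀ a ∈ A, z a = a → a = 0 := by
  intro a ha hza
  have h := fix_quot hz (A := ⊥) (B := A) (fun v hv => by
    rw [Submodule.mem_bot] at hv ⊢; rw [hv, map_zero]) hA.inv bot_le (fun C hC _ h2 => hA.min C h2 hC)
    (fun v hv => by rw [Submodule.mem_bot] at hv ⊢; rw [hv, map_zero])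
    (fun h => hn fun b hb => sub_eq_zero.1 ((Submodule.mem_bot F).1 (h b hb))) a ha
    (by rw [hza, sub_self]; exact Submodule.zero_mem _)
  exact (Submodule.mem_bot F).1 h

variable [Finite F] [Module.Finite F V]

/-- a linear map of `r`-power order without fixed points in `B` outside `A` -/
theorem card_modEq {r k : ℕ} [Fact r.Prime] {z : V ≃ₗ[F] V} (hz : z ^ r ^ k = 1) {A B : Submodule F V}
    (hAB : A ≤ B) (hA : Inv z A) (hB : Inv z B) (hf : ∀ b ∈ B, z b = b → b ∈ A) :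
    Nat.card B ≡ Nat.card A [MOD r] := by
  classical
  have hfin : Finite V := Module.finite_of_finite F
  have key : ∀ (S : Submodule F V) (hS : Inv z S),
      Nat.card S ≡ Nat.card {v : V // v ∈ S ∧ z v = v} [MOD r] := by
    intro S hS
    have : Fintype S := Fintype.ofFinite S
    let f : Function.End S := fun v => ⟨z v, hS v v.2⟩
    have hfv : ∀ v : S, ((f v : S) : V) = z v := fun v => rfl
    have hfp : ∀ (n : ℕ) (v : S), (((f ^ n : Function.End S) v : S) : V) = (z ^ n) v := by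
      intro n
      induction n with
      | zero => intro v; rfl
      | succ n ih =>
        intro v
        rw [pow_succ, pow_succ]
        exact ih (f v)
    have h1 : f ^ r ^ k = 1 := by
      funext v
      apply Subtype.ext
      rw [hfp, hz]
      rfl
    have h2 := Equiv.Perm.card_fixedPoints_modEq h1
    rw [Nat.card_eq_fintype_card]
    refine h2.trans ?_
    rw [← Nat.card_eq_fintype_card]
    apply Nat.ModEq.symm
    have h3 : Nat.card {v : V // v ∈ S ∧ z v = v} = Nat.card (Function.fixedPoints f) := by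
      refine Nat.card_congr
        { toFun := fun v => ⟨⟨v.1, v.2.1⟩, Subtype.ext v.2.2⟩
          invFun := fun v => ⟨v.1.1, v.1.2, congrArg Subtype.val v.2⟩
          left_inv := fun v => rfl
          right_inv := fun v => rfl }
    rw [h3]
  have h4 : Nat.card {v : V // v ∈ B ∧ z v = v} = Nat.card {v : V // v ∈ A ∧ z v = v} := by
    congr 1
    congr 1
    funext v
    apply propext
    constructor
    · rintro ⟨h1, h2⟩
      exact ⟨hf v h1 h2, h2⟩
    · rintro ⟨h1, h2⟩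
      exact ⟨hAB h1, h2⟩
  exact (key B hB).trans (h4 ▸ (key A hA).symm)

theorem dvd_sub_of {e r k : ℕ} (he : 2 ≤ e) (hr : r.Prime) (hord : orderOf ((Nat.card F : ℕ) : ZMod r) = e)
    {z : V ≃ₗ[F] V} (hz : z ^ r ^ k = 1) {A B : Submodule F V}
    (hAB : A ≤ B) (hA : Inv z A) (hB : Inv z B) (hf : ∀ b ∈ B, z b = b → b ∈ A) :
    e ∣ finrank F B - finrank F A := by
  have : Fact r.Prime := ⟨hr⟩
  have h1 := card_modEq hz hAB hA hB hf
  rw [Module.natCard_eq_pow_finrank (K := F) (V := B), Module.natCard_eq_pow_finrank (K := F) (V := A)] at h1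
  have h2 : finrank F A ≤ finrank F B := Submodule.finrank_mono hAB
  have h3 : ((Nat.card F : ℕ) : ZMod r) ^ finrank F B = ((Nat.card F : ℕ) : ZMod r) ^ finrank F A := by
    have := (ZMod.natCast_eq_natCast_iff _ _ _).2 h1
    push_cast at this
    exact this
  have h0 : ((Nat.card F : ℕ) : ZMod r) ≠ 0 := by
    intro h0
    rw [h0, orderOf_zero] at hord
    omega
  have h4 : ((Nat.card F : ℕ) : ZMod r) ^ (finrank F B - finrank F A) = 1 := by
    have h5 : ((Nat.card F : ℕ) : ZMod r) ^ finrank F B =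
        ((Nat.card F : ℕ) : ZMod r) ^ (finrank F B - finrank F A) * ((Nat.card F : ℕ) : ZMod r) ^ finrank F A := by
      rw [← pow_add, Nat.sub_add_cancel h2]
    rw [h5] at h3
    exact mul_right_cancel₀ (pow_ne_zero _ h0) (by rw [h3, one_mul])
  rw [← hord]
  exact orderOf_dvd_of_pow_eq_one h4

/-- the part `z` of `y` for the primes `r` with `ord_r(q) = e` -/
theorem exists_gen {e M : ℕ} {y : V ≃ₗ[F] V} {A : Submodule F V} (hM : 2 ≤ M) (h : BigOn e M y A) :
    ∃ z ∈ Subgroup.zpowers y, M ≤ orderOf z ∧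
      (∀ r : ℕ, r.Prime → r ∣ orderOf z → orderOf ((Nat.card F : ℕ) : ZMod r) = e) ∧ ¬ ∀ a ∈ A, z a = a := by
  have hfV : Finite V := Module.finite_of_finite F
  have hfG : Finite (V ≃ₗ[F] V) := Finite.of_injective (fun g : V ≃ₗ[F] V => (g : V → V)) DFunLike.coe_injective
  obtain ⟨m, hm, hpr, hk⟩ := h
  have hN : orderOf y ≠ 0 := (orderOf_pos y).ne'
  have hmN : m ∣ orderOf y := hk _ (fun a _ => by rw [pow_orderOf_eq_one]; rfl)
  obtain ⟨a, b, hab, hcop, hpa⟩ := exists_split m _ hN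
  have ha0 : a ≠ 0 := fun h0 => hN (by rw [hab, h0, zero_mul])
  have hb0 : b ≠ 0 := fun h0 => hN (by rw [hab, h0, mul_zero])
  have hord : orderOf (y ^ b) = a := by
    rw [orderOf_pow_of_dvd hb0 (hab ▸ dvd_mul_left b a), hab, Nat.mul_div_cancel _ (Nat.pos_of_ne_zero hb0)]
  have hma : m ∣ a := by
    rw [hab] at hmN
    exact hcop.dvd_of_dvd_mul_right hmN
  refine ⟨y ^ b, ⟨b, by simp⟩, ?_, ?_, ?_⟩
  · rw [hord]
    exact hm.trans (Nat.le_of_dvd (Nat.pos_of_ne_zero ha0) hma)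
  · intro r hr h1
    rw [hord] at h1
    exact hpr r hr (hpa r hr h1)
  · intro h1
    have h2 := hk b h1
    have h3 : m = 1 := Nat.Coprime.eq_one_of_dvd hcop h2
    omega

end

end Cfsg.Agent.H127.RG
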